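import Cfsg.Agent.H436.Names
import Cfsg.Agent.H122.MinDeg

/-!
# S5714 (random pairs generate), TEAM RG: definitions

Engine: if every maximal subgroup misses one of few normal subsets of density `≥ 1 / F` (`Cov`), the nontrivial complex
characters have large degree (`MinDeg`), and most elements `x` have powers `x ^ j` (`0 < j < J`) with small centralizers
(`Typ`), then most pairs generate.
-/

set_option autoImplicit false

namespace Cfsg.Agent.H178.RG

open Cfsg Cfsg.Agent.OrdDiv Cfsg.Agent.H436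
open Polynomial

universe u

section groups

variable (T : Type u) [Group T]

/-- the number of pairs which do not generate -/
noncomputable def badP : ℕ := Nat.card {xy : T × T // Subgroup.closure {xy.1, xy.2} ≠ ⊤}

variable {T}

/-- normal subsets -/
def NSet (A : Set T) : Prop := ∀ g : T, ∀ a ∈ A, g * a * g⁻¹ ∈ A

/-- the centralizers of `x ^ j`, `0 < j < J`, have order at most `B` -/
def Nice (B : ℝ) (J : ℕ) (x : T) : Prop :=
  ∀ j : ℕ, 0 < j → j < J → (Nat.card (Subgroup.centralizer ({x ^ j} : Set T)) : ℝ) ≤ B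

variable (T)

/-- all but a proportion `η` of the elements of `T` are nice -/
def Typ (B : ℝ) (J : ℕ) (η : ℝ) : Prop :=
  (Nat.card {x : T // ¬ Nice B J x} : ℝ) ≤ η * Nat.card T

/-- at most `k` normal subsets of density `≥ 1 / F`, and a set `W` of pairs of density `≤ ρ`, such that every maximal
subgroup `M` misses one of the normal sets or has `M × M ⊆ W` -/
def Cov (k F ρ : ℝ) : Prop :=
  ∃ (𝒜 : Finset (Set T)) (W : Set (T × T)), (𝒜.card : ℝ) ≤ k ∧ (Nat.card W : ℝ) ≤ ρ * (Nat.card T : ℝ) ^ 2 ∧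
    (∀ A ∈ 𝒜, NSet A ∧ (Nat.card T : ℝ) ≤ F * Nat.card A) ∧
    ∀ M : Subgroup T, IsCoatom M → (∃ A ∈ 𝒜, ∀ t ∈ M, t ∉ A) ∨ ∀ x ∈ M, ∀ y ∈ M, (x, y) ∈ W

end groups

/-- the result for the groups with a name in `P` -/
def RowG (P : Grp → Prop) : Prop :=
  ∀ ε : ℝ, 0 < ε → ∃ D : ℕ, ∀ (g : Grp) (T : Type) [Group T] [Finite T] [IsSimpleGroup T], IsNamed g T → P g →
    D ≤ Nat.card T → (badP T : ℝ) ≤ ε * (Nat.card T : ℝ) ^ 2

/-! ### linear algebra -/

section linear

variable {F ι : Type} [Field F] [Fintype ι] [DecidableEq ι]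

/-- the annihilator of the vector `v` under the matrix `x` is generated by `f` -/
def Ann (x : Matrix ι ι F) (v : ι → F) (f : F[X]) : Prop := ∀ g : F[X], (aeval x g).mulVec v = 0 ↔ f ∣ g

/-- the kernel of `f (x)` -/
def kerP (x : Matrix ι ι F) (f : F[X]) : Set (ι → F) := {v | (aeval x f).mulVec v = 0}

/-- the first moment bound: the expected number of vectors with annihilator `f` is at most `c f` -/
def FM {G : Type} [Group G] (ρ : G →* Matrix ι ι F) (f : F[X]) (c : ℝ) : Prop :=
  (Nat.card {xv : G × (ι → F) // Ann (ρ xv.1) xv.2 f} : ℝ) ≤ c * Nat.card G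

open Classical in
/-- the multiset of the (monic) irreducible factors of the characteristic polynomial -/
noncomputable def facs (x : Matrix ι ι F) : Multiset F[X] := UniqueFactorizationMonoid.normalizedFactors x.charpoly

open Classical in
/-- the dimension of the sum of the generalized eigenspaces for the irreducible factors with `P` -/
noncomputable def sdim (P : F[X] → Prop) (x : Matrix ι ι F) : ℕ := (((facs x).filter P).map natDegree).sum

/-- the polynomial whose roots are the `λ ^ (- s)` : `t ^ n f^{(s)}(1 / t) / f(0)^s`; `s = 1` for bilinear forms, `s ^ 2 = |F|`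
for hermitian forms -/
noncomputable def dualP (s : ℕ) (f : F[X]) : F[X] :=
  C ((f.coeff 0 ^ s)⁻¹) * (f.sum fun i a => C (a ^ s) * X ^ (f.natDegree - i))

/-- forms: `B` is additive in both variables, linear in the first and `s`-semilinear in the second variable, nondegenerate,
and `B (w, v) = ε B (v, w) ^ s`; `s = 1` (bilinear), or `s ^ 2 = |F|` (hermitian). -/
structure IsForm [Fintype F] (s : ℕ) (ε : F) (B : (ι → F) → (ι → F) → F) : Prop where
  hs : s = 1 ∨ s ^ 2 = Fintype.card F
  add_left : ∀ u v w, B (u + v) w = B u w + B v w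
  smul_left : ∀ (a : F) v w, B (a • v) w = a * B v w
  symm : ∀ v w, B w v = ε * B v w ^ s
  nondeg : ∀ v, (∀ w, B v w = 0) → v = 0

/-- `e` bounds the degrees of the common divisors of `f` and its dual (no condition for `s = 0`, the linear groups) -/
def CDeg (s : ℕ) (f : F[X]) (e : ℕ) : Prop := s ≠ 0 → ∀ g : F[X], g ∣ f → g ∣ dualP s f → g.natDegree ≤ e

/-- the first moment bounds for the linear groups (`s = 0`), the symplectic and orthogonal groups (`s = 1`), and the unitary
groups (`s ^ 2 = |F|`) -/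
structure FMS [Fintype F] {G : Type} [Group G] (s : ℕ) (ρ : G →* Matrix ι ι F) : Prop where
  hs : s ≤ 1 ∨ s ^ 2 = Fintype.card F
  gen : ∀ f : F[X], f.Monic → f.coeff 0 ≠ 0 → (s = 1 → IsCoprime f (X ^ 2 - 1)) → ∀ e : ℕ, CDeg s f e →
    FM ρ f (√(Fintype.card F : ℝ) ^ e)
  all : s = 1 → ∀ f : F[X], f.Monic → f.coeff 0 ≠ 0 → FM ρ f (√(Fintype.card F : ℝ) ^ (f.natDegree + 4))
  dual : s ≠ 0 → ∀ x : G, dualP s (ρ x).charpoly = (ρ x).charpoly

/-- the Gram data determine the pair (up to the group) -/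
def WittP {G : Type} [Group G] (ρ : G →* Matrix ι ι F) (B : (ι → F) → (ι → F) → F) (Q : (ι → F) → F) : Prop :=
  ∀ (f : F[X]) (x x' : G) (v v' : ι → F), Ann (ρ x) v f → Ann (ρ x') v' f → Q v = Q v' →
    (∀ i : ℤ, B ((ρ (x ^ i)).mulVec v) v = B ((ρ (x' ^ i)).mulVec v') v') →
    ∃ g : G, ∀ i : ℕ, (ρ g).mulVec ((ρ (x ^ i)).mulVec v) = (ρ (x' ^ i)).mulVec v'

/-- the symmetric sequences with recurrence `f` -/
def SymSeq (s : ℕ) (ε : F) (f : F[X]) : Set (ℤ → F) :=
  {c | (∀ m : ℤ, (f.sum fun i a => a * c (m + i)) = 0) ∧ ∀ i : ℤ, c (-i) = ε * c i ^ s}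

/-- the exceptional polynomials: `t ∓ 1` for bilinear forms -/
def Exc (s : ℕ) (φ : F[X]) : Prop := s = 1 ∧ φ ∣ X ^ 2 - 1

/-- `φ` is small: degree `≤ L`, or exceptional -/
def Small (s L : ℕ) (φ : F[X]) : Prop := φ.natDegree ≤ L ∨ Exc s φ

open Classical in
/-- good matrices, `s = 0` for the linear groups, `s = 1` for bilinear forms, `s ^ 2 = |F|` for hermitian forms:
the factors of `χ_x` which are not small are simple, different roots of them have different `j`-th powers (`0 < j < J`),
and the small factors have total degree `≤ S` -/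
structure GoodX (s L S J : ℕ) (x : Matrix ι ι F) : Prop where
  nodup : ∀ φ ∈ facs x, ¬ Small s L φ → (facs x).count φ = 1
  inj : ∀ a b : AlgebraicClosure F, minpoly F a ∈ facs x → ¬ Small s L (minpoly F a) → minpoly F b ∈ facs x →
    ¬ Small s L (minpoly F b) → ∀ j, 0 < j → j < J → a ^ j = b ^ j → a = b
  small : sdim (Small s L) x ≤ S

/-- the general unitary group of `hermForm n F q` -/
def GU (n : ℕ) (F : Type) [Field F] (q : ℕ) : Subgroup (Matrix.GeneralLinearGroup (Fin n) F) :=
  preserving (Units.coeHom (Matrix (Fin n) (Fin n) F)) (hermForm n F q)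

end linear

end Cfsg.Agent.H178.RG
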